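import Cfsg.Agent.Lib.Helper35.Fi23Ord.Main
import Cfsg.Agent.Lib.Helper35.Fi23Tr.X.Fin
import Cfsg.Agent.Lib.Helper35.Trans3

/-! The class of 3-transpositions of the presented Fi23. -/

namespace Cfsg.Agent.Lib.Helper35.Fi23Tr

open Cfsg.Agent.Lib.Helper35 Cfsg.Spor

set_option maxRecDepth 100000

def zW : List Nat := repW 9 [1, 2, 3, 4, 5, 6, 8]
def g1 : List Nat := [7]
def g2 : List Nat := [7, 6, 5, 4, 3, 2, 8, 3, 4, 5, 6, 7]
def g2r : List Nat := [7, 6, 5, 4, 3, 8, 2, 3, 4, 5, 6, 7]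

theorem weq0 : zW ++ ([0] ++ (zW ++ [0])) = Fi23Ord.X0.wl0.W := by decide +kernel
theorem weq1 : zW ++ ([1] ++ (zW ++ [1])) = Fi23Ord.X0.wl1.W := by decide +kernel
theorem weq2 : zW ++ ([2] ++ (zW ++ [2])) = Fi23Ord.X0.wl2.W := by decide +kernel
theorem weq3 : zW ++ ([3] ++ (zW ++ [3])) = Fi23Ord.X0.wl3.W := by decide +kernel
theorem weq4 : zW ++ ([4] ++ (zW ++ [4])) = Fi23Ord.X0.wl4.W := by decide +kernel
theorem weq5 : zW ++ ([5] ++ (zW ++ [5])) = Fi23Ord.X0.wl5.W := by decide +kernel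
theorem weq6 : zW ++ ([6] ++ (zW ++ [6])) = Fi23Ord.X0.wl6.W := by decide +kernel
theorem weq7 : zW ++ ([8] ++ (zW ++ [8])) = Fi23Ord.X0.wl7.W := by decide +kernel
theorem weq8 : zW ++ ([9] ++ (zW ++ [9])) = Fi23Ord.X0.wl8.W := by decide +kernel
theorem weq9 : zW ++ zW = Fi23Ord.X0.wl9.W := by decide +kernel
theorem veq0 : g1 ++ g1 = X.wl0.W := by decide +kernel
theorem veq1 : g2r ++ g2 = X.wl1.W := by decide +kernel
theorem veq2 : repW 3 (zW ++ (g1 ++ (zW ++ g1))) = X.wl2.W := by decide +kernel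
theorem veq3 : repW 2 (zW ++ (g2r ++ (zW ++ g2))) = X.wl3.W := by decide +kernel

theorem finFi23 : Finite Fi23 := Nat.finite_of_card_ne_zero (by rw [Fi23Ord.main.2]; decide)

theorem key (u : Nat → Fi23) (Ψ : Fi23 →* Equiv.Perm (Fin (31670 + 1)))
    (hΨ : ∀ c, Ψ (u c) = Fi23a.permData.pv c) (hΨi : Function.Injective Ψ) :
    Subgroup.centralizer {wval u zW} = wsub u Fi23a.S ∧
      Cfsg.IsThreeTranspositionSet (conjugatesOf (wval u zW)) := by
  haveI := finFi23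
  have hc : Nat.card (wsub u Fi23a.S) = 2 * Nat.card Fi22 := (Fi23Ord.cover_gen u Ψ hΨ hΨi).2
  refine three_trans_of_model Fi23a.permData u Ψ hΨ hΨi
    (by rw [hc, Fi23Ord.main.2, Fi22Ord.main.2]) Fi23a.orbData
    (fun i => OrbData.lab_lt Fi23a.orbData 3 Fi23Ord.cnt0 Fi23Ord.prim0.hcnt Fi23Ord.prim0.hsum i)
    zW g1 g1 g2 g2r (by decide +kernel) (by decide +kernel) (by decide +kernel) (by decide +kernel)
    (by decide +kernel) (by decide +kernel) (by decide +kernel) (by decide +kernel)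
    ?_ ?_ ?_ 1 ?_ ?_ ?_ ?_ 0 ?_ ?_ 1 ?_ ?_ ?_ ?_
  · intro s hs i hi
    simp only [Fi23a.S, List.mem_cons, List.not_mem_nil, or_false] at hs
    rcases hs with rfl | rfl | rfl | rfl | rfl | rfl | rfl | rfl | rfl
    · exact (Fi23a.permData.chk 0 (by decide +kernel) i hi).2
    · exact (Fi23a.permData.chk 1 (by decide +kernel) i hi).2
    · exact (Fi23a.permData.chk 2 (by decide +kernel) i hi).2
    · exact (Fi23a.permData.chk 3 (by decide +kernel) i hi).2
    · exact (Fi23a.permData.chk 4 (by decide +kernel) i hi).2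
    · exact (Fi23a.permData.chk 5 (by decide +kernel) i hi).2
    · exact (Fi23a.permData.chk 6 (by decide +kernel) i hi).2
    · exact (Fi23a.permData.chk 8 (by decide +kernel) i hi).2
    · exact (Fi23a.permData.chk 9 (by decide +kernel) i hi).2
  · intro s hs i hi
    simp only [Fi23a.S, List.mem_cons, List.not_mem_nil, or_false] at hs
    rcases hs with rfl | rfl | rfl | rfl | rfl | rfl | rfl | rfl | rfl
    · rw [weq0]; exact Fi23Ord.X0.wfix0 i hi
    · rw [weq1]; exact Fi23Ord.X0.wfix1 i hi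
    · rw [weq2]; exact Fi23Ord.X0.wfix2 i hi
    · rw [weq3]; exact Fi23Ord.X0.wfix3 i hi
    · rw [weq4]; exact Fi23Ord.X0.wfix4 i hi
    · rw [weq5]; exact Fi23Ord.X0.wfix5 i hi
    · rw [weq6]; exact Fi23Ord.X0.wfix6 i hi
    · rw [weq7]; exact Fi23Ord.X0.wfix7 i hi
    · rw [weq8]; exact Fi23Ord.X0.wfix8 i hi
  · intro i hi
    rw [weq9]; exact Fi23Ord.X0.wfix9 i hi
  · show 1 < 31670 + 1
    decide
  · decide +kernel
  · intro i hi
    rw [veq0]; exact X.wfix0 i hi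
  · intro i hi
    rw [veq1]; exact X.wfix1 i hi
  · show 0 < 31670 + 1
    decide
  · decide +kernel
  · show 1 < 31670 + 1
    decide
  · decide +kernel
  · intro i hi
    rw [veq2]; exact X.wfix2 i hi
  · intro i hi
    rw [veq3]; exact X.wfix3 i hi

end Cfsg.Agent.Lib.Helper35.Fi23Tr
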